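import Mathlib
import Cfsg.Agent.H939.KLat

/-!
`A_n` (`n ≥ 4`) has a complemented subgroup lattice (row of S5900).
-/

set_option autoImplicit false

namespace Cfsg.Agent.H724.AltCL

open Cfsg.Agent.H939.KLat MulAction

/-- the subgroup `V_4` of `A_4` -/
def V4 : Subgroup (alternatingGroup (Fin 4)) where
  carrier := {g | g * g = 1}
  mul_mem' := by
    have h : ∀ a b : alternatingGroup (Fin 4), a * a = 1 → b * b = 1 → (a * b) * (a * b) = 1 := by
      decide +kernel
    intro a b ha hb
    exact h a b ha hb
  one_mem' := by simp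
  inv_mem' := by
    intro a ha
    have ha' : a * a = 1 := ha
    show a⁻¹ * a⁻¹ = 1
    rw [← mul_inv_rev, ha', inv_one]

theorem mem_V4 {g : alternatingGroup (Fin 4)} : g ∈ V4 ↔ g * g = 1 := Iff.rfl

def c3 : alternatingGroup (Fin 4) := 
  ⟨finRotate 4 * Equiv.swap 0 1, by rw [Equiv.Perm.mem_alternatingGroup]; decide +kernel⟩

theorem cl_A4 : CL (alternatingGroup (Fin 4)) := by
  refine of_normal_abelian (N := V4) (L := Subgroup.zpowers c3) ?_ ?_ ?_ ?_ ?_
  · have h : ∀ a b : alternatingGroup (Fin 4), a * a = 1 → b * b = 1 → a * b = b * a := by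
      decide +kernel
    intro n hn m hm
    exact h n m hn hm
  · intro g n hn
    rw [mem_V4] at hn ⊢
    have : g * n * g⁻¹ * (g * n * g⁻¹) = g * (n * n) * g⁻¹ := by group
    rw [this, hn]; simp
  · have h : ∀ k n : alternatingGroup (Fin 4), k * k = 1 → k ≠ 1 → n * n = 1 → n ≠ 1 →
        ∃ g : alternatingGroup (Fin 4), g * k * g⁻¹ = n := by
      decide +kernel
    intro K hK hKn
    by_cases h0 : K = ⊥
    · exact Or.inl h0
    · right
      refine le_antisymm hK fun n hn => ?_
      obtain ⟨k, hk, hk1⟩ : ∃ k ∈ K, k ≠ 1 := by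
        by_contra hcon
        push Not at hcon
        exact h0 ((Subgroup.eq_bot_iff_forall K).mpr hcon)
      by_cases hn1 : n = 1
      · rw [hn1]; exact K.one_mem
      obtain ⟨g, hg⟩ := h k n (hK hk) hk1 hn hn1
      rw [← hg]
      exact hKn g k hk
  · have h : ∀ g : alternatingGroup (Fin 4), ∃ n : alternatingGroup (Fin 4), n * n = 1 ∧
        (g = n * 1 ∨ g = n * c3 ∨ g = n * (c3 * c3)) := by
      decide +kernel
    intro g
    obtain ⟨n, hn, h1 | h1 | h1⟩ := h g
    · exact ⟨n, hn, 1, Subgroup.one_mem _, h1⟩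
    · exact ⟨n, hn, c3, Subgroup.mem_zpowers c3, h1⟩
    · exact ⟨n, hn, c3 * c3, Subgroup.mul_mem _ (Subgroup.mem_zpowers c3) (Subgroup.mem_zpowers c3), h1⟩
  · apply of_prime
    rw [Nat.card_zpowers]
    have h3 : orderOf c3 = 3 := by
      have : Fact (Nat.Prime 3) := ⟨Nat.prime_three⟩
      refine orderOf_eq_prime ?_ ?_
      · have : c3 * c3 * c3 = 1 := by decide +kernel
        rw [pow_succ, pow_two]; exact this
      · decide +kernel
    rw [h3]
    exact Nat.prime_three

/-- the embedding of the alternating group of the complement of a point -/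
def stabHom {α : Type*} [Fintype α] [DecidableEq α] (a : α) :
    alternatingGroup {x : α // x ≠ a} →* alternatingGroup α :=
  ((Equiv.Perm.ofSubtype (p := fun x : α => x ≠ a)).comp (alternatingGroup {x : α // x ≠ a}).subtype).codRestrict
    (alternatingGroup α) (by
      intro x
      rw [Equiv.Perm.mem_alternatingGroup]
      simp only [MonoidHom.coe_comp, Function.comp_apply, Subgroup.coe_subtype, Equiv.Perm.sign_ofSubtype]
      exact x.2)

theorem stabHom_inj {α : Type*} [Fintype α] [DecidableEq α] (a : α) : Function.Injective (stabHom a) := by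
  intro x y h
  have h1 := congrArg Subtype.val h
  exact Subtype.ext (Equiv.Perm.ofSubtype_injective h1)

theorem stabHom_range {α : Type*} [Fintype α] [DecidableEq α] (a : α) :
    (stabHom a).range = stabilizer (alternatingGroup α) a := by
  ext g
  constructor
  · rintro ⟨x, rfl⟩
    rw [mem_stabilizer_iff]
    show Equiv.Perm.ofSubtype (x : Equiv.Perm {x : α // x ≠ a}) a = a
    exact Equiv.Perm.ofSubtype_apply_of_not_mem _ (by simp)
  · intro hg
    rw [mem_stabilizer_iff] at hg
    have hga : (g : Equiv.Perm α) a = a := hg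
    have hp : ∀ x : α, x ≠ a ↔ (g : Equiv.Perm α) x ≠ a := by
      intro x
      rw [not_iff_not]
      constructor
      · rintro rfl; exact hga
      · intro hx; exact (g : Equiv.Perm α).injective (hx.trans hga.symm)
    have hof : Equiv.Perm.ofSubtype ((g : Equiv.Perm α).subtypePerm (p := fun x : α => x ≠ a) (fun x => (hp x).symm)) = (g : Equiv.Perm α) := by
      refine Equiv.Perm.ofSubtype_subtypePerm _ ?_
      intro x hx hxa
      exact hx (by rw [hxa]; exact hga)
    refine ⟨⟨(g : Equiv.Perm α).subtypePerm (p := fun x : α => x ≠ a) (fun x => (hp x).symm), ?_⟩, ?_⟩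
    · rw [Equiv.Perm.mem_alternatingGroup, ← Equiv.Perm.sign_ofSubtype, hof]
      exact g.2
    · exact Subtype.ext hof

theorem cl_alt_aux (n : ℕ) : ∀ (α : Type) [Fintype α] [DecidableEq α], Fintype.card α = n + 4 →
    CL (alternatingGroup α) := by
  induction n with
  | zero =>
    intro α _ _ hα
    have e : Fin 4 ≃ α := (Fintype.equivFinOfCardEq (by simpa using hα)).symm
    exact of_equiv e.altCongrHom cl_A4
  | succ n ih =>
    intro α _ _ hα
    have hNc : Nat.card α = n + 5 := by rw [Nat.card_eq_fintype_card, hα]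
    have hsimple : IsSimpleGroup (alternatingGroup α) := alternatingGroup.isSimpleGroup (by omega)
    have hne : Nonempty α := by
      rw [← Fintype.card_pos_iff]; omega
    obtain ⟨a⟩ := hne
    have hnt : Nontrivial α := by
      rw [← Fintype.one_lt_card_iff_nontrivial]; omega
    have hprim : IsPreprimitive (alternatingGroup α) α :=
      alternatingGroup.isPreprimitive_of_three_le_card α (by omega)
    have hco : IsCoatom (stabilizer (alternatingGroup α) a) :=
      IsPreprimitive.isCoatom_stabilizer_of_isPreprimitive _ a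
    have hcard : Fintype.card {x : α // x ≠ a} = n + 4 := by
      rw [Fintype.card_subtype_compl, Fintype.card_subtype_eq, hα]; rfl
    have hX : CL (stabilizer (alternatingGroup α) a) := by
      rw [← stabHom_range]
      exact of_equiv (MonoidHom.ofInjective (stabHom_inj a)) (ih _ hcard)
    refine crit_unique hX hco.1 fun Y hXY hY => ?_
    by_contra hle
    exact hY (hco.2 _ (lt_of_le_of_ne hXY (fun h => hle h.ge)))

/-- **`A_n` has a complemented subgroup lattice.** -/
theorem cl_alt (n : ℕ) (hn : 5 ≤ n) : CL (alternatingGroup (Fin n)) :=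
  cl_alt_aux (n - 4) (Fin n) (by simp; omega)

end Cfsg.Agent.H724.AltCL
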