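import Cfsg.Agent.H733.Tor.Main

/-!
# S3235, cross characteristic, covers (task 1241, helper724)

`π : G' →* G` surjective with central kernel of exponent two.
* `CK.exists_lift` : homomorphisms from abelian groups of odd exponent lift;
* `cov_bound` : the weights of the lift of the root subgroup of `SL₂(q)`;
* `reg_of_cover` : `Reg p r N G` if `G'` has a faithful representation of degree `N`.
-/

set_option autoImplicit false

namespace Cfsg.Agent.H724.Tor

open Subgroup Matrix Module Cfsg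
open Cfsg.Agent.H333.SLTwoLine (Ker1 u l d u_mul u_inv u_zero d_u)
open Cfsg.Agent.H972.Weights Cfsg.Agent.H103.Tor Cfsg.Agent.H733.Tor

/-! ### lifting -/

section Lift

variable {G' G : Type*} [Group G'] [Group G] {π : G' →* G}

/-- `π` is surjective with central kernel of exponent two -/
def CK (π : G' →* G) : Prop := Function.Surjective π ∧ ∀ z, π z = 1 → (∀ g, Commute g z) ∧ z ^ 2 = 1

theorem odd_pow {z : G'} (hz : z ^ 2 = 1) {p : ℕ} (ho : Odd p) : z ^ p = z := by
  obtain ⟨k, rfl⟩ := ho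
  rw [pow_add, pow_mul, hz, one_pow, one_mul, pow_one]

theorem CK.uniq (h : CK π) {p : ℕ} (ho : Odd p) {a b : G'} (hab : π a = π b) (ha : a ^ p = 1) (hb : b ^ p = 1) :
    a = b := by
  obtain ⟨hz, hz2⟩ := h.2 (a⁻¹ * b) (by rw [map_mul, map_inv, hab, inv_mul_cancel])
  have hb' : b = a * (a⁻¹ * b) := by group
  have h1 : (a * (a⁻¹ * b)) ^ p = a ^ p * (a⁻¹ * b) ^ p := (hz a).mul_pow p
  rw [← hb', hb, ha, odd_pow hz2 ho, one_mul] at h1
  exact inv_mul_eq_one.1 h1.symm

theorem CK.comm (h : CK π) {p : ℕ} (ho : Odd p) {a b : G'} (hab : Commute (π a) (π b)) (hb : b ^ p = 1) :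
    Commute a b := by
  have h1 : a * b * a⁻¹ = b := by
    refine h.uniq ho ?_ (by rw [conj_pow, hb]; group) hb
    rw [map_mul, map_mul, map_inv, hab.eq]
    group
  show a * b = b * a
  calc a * b = a * b * a⁻¹ * a := by group
    _ = b * a := by rw [h1]

theorem CK.exists_lift (h : CK π) {p : ℕ} (ho : Odd p) {A : Type*} [CommGroup A] (w : A →* G)
    (hA : ∀ x : A, x ^ p = 1) : ∃ w' : A →* G', (∀ x, π (w' x) = w x) ∧ ∀ x, w' x ^ p = 1 := by
  have hex : ∀ x : A, ∃ a : G', π a = w x ∧ a ^ p = 1 := by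
    intro x
    obtain ⟨y, hy⟩ := h.1 (w x)
    have hz0 : π (y ^ p) = 1 := by rw [map_pow, hy, ← map_pow, hA, map_one]
    obtain ⟨hz, hz2⟩ := h.2 _ hz0
    refine ⟨y * y ^ p, by rw [map_mul, hz0, mul_one, hy], ?_⟩
    rw [(hz y).mul_pow p, odd_pow hz2 ho, ← pow_two, hz2]
  choose f hf hfp using hex
  refine ⟨MonoidHom.mk' f ?_, hf, hfp⟩
  intro x y
  refine h.uniq ho ?_ (hfp _) ?_
  · rw [map_mul, hf, hf, hf, map_mul]
  · have hc : Commute (f x) (f y) := h.comm ho (by
      rw [hf, hf]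
      exact (Commute.all x y).map w) (hfp y)
    rw [hc.mul_pow, hfp, hfp, one_mul]

end Lift

section Bound

variable {K : Type} [Field K] [Fintype K]

theorem cov_bound {p : ℕ} (hp : p.Prime) [CharP K p] {E U : Type*} [Field E] [IsAlgClosed E]
    (hE : (p : E) ≠ 0) [AddCommGroup U] [Module E U] [FiniteDimensional E U] {G : Type*} [Group G]
    (ρ : G →* Module.End E U) (w : Multiplicative K →* G)
    (hw : ∀ t : K, t ≠ 0 → ∃ D : G, ∀ x : Multiplicative K, w (sqHom (t ^ 2) x) = D⁻¹ * w x * D)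
    (h : ∃ x, ρ (w x) ≠ 1) :
    Fintype.card K ≤ 2 * finrank E U + 1 := by
  classical
  have hpf := Fact.mk hp
  have hexp : Monoid.exponent (Multiplicative K) ∣ p := by
    refine Monoid.exponent_dvd_of_forall_pow_eq_one fun x => ?_
    apply Multiplicative.toAdd.injective
    rw [toAdd_pow, toAdd_one, nsmul_eq_mul, CharP.cast_eq_zero, zero_mul]
  have hcard : (Nat.card (Multiplicative K) : E) ≠ 0 := by
    obtain ⟨n, hpn, hn⟩ := FiniteField.card K p
    have e : Nat.card (Multiplicative K) = p ^ (n : ℕ) := by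
      rw [← hn, ← Nat.card_eq_fintype_card]; exact Nat.card_congr Multiplicative.toAdd
    rw [e, Nat.cast_pow]
    exact pow_ne_zero _ hE
  have hexp0 : ((Monoid.exponent (Multiplicative K) : ℕ) : E) ≠ 0 := by
    obtain ⟨c, hc⟩ := hexp
    intro h0
    apply hE
    rw [hc, Nat.cast_mul, h0, zero_mul]
  have : NeZero ((Monoid.exponent (Multiplicative K) : ℕ) : E) := ⟨hexp0⟩
  obtain ⟨x₀, hx₀⟩ := h
  obtain ⟨χ, hχ1, hχ⟩ := exists_hasWeight (A := Multiplicative K) (K := E) hcard (ρ.comp w) ⟨x₀, hx₀⟩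
  -- the weights `χ ∘ (c * ·)`, `c` a nonzero square
  let S : Subgroup Kˣ := (powMonoidHom 2 : Kˣ →* Kˣ).range
  have hwt : ∀ c : S, HasWeight (ρ.comp w) (χ.comp (sqHom ((c : Kˣ) : K))) := by
    rintro ⟨_, t, rfl⟩
    obtain ⟨D, hD⟩ := hw t t.ne_zero
    refine hχ.conj D _ fun x => ?_
    have h3 : (((powMonoidHom 2 : Kˣ →* Kˣ) t : Kˣ) : K) = (t : K) ^ 2 := by simp
    rw [h3]
    exact hD x
  have hinj : Function.Injective fun c : S => χ.comp (sqHom ((c : Kˣ) : K)) := by
    intro c c' hcc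
    by_contra hne
    apply hχ1
    have hne' : ((c : Kˣ) : K) - ((c' : Kˣ) : K) ≠ 0 := by
      intro h0
      exact hne (Subtype.ext (Units.ext (sub_eq_zero.1 h0)))
    refine MonoidHom.ext fun y => ?_
    have h1 : χ (Multiplicative.ofAdd (((c : Kˣ) : K) * (y.toAdd / (((c : Kˣ) : K) - ((c' : Kˣ) : K))))) =
        χ (Multiplicative.ofAdd (((c' : Kˣ) : K) * (y.toAdd / (((c : Kˣ) : K) - ((c' : Kˣ) : K))))) :=
      DFunLike.congr_fun hcc (Multiplicative.ofAdd (y.toAdd / (((c : Kˣ) : K) - ((c' : Kˣ) : K))))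
    have h2 : y = Multiplicative.ofAdd (((c : Kˣ) : K) * (y.toAdd / (((c : Kˣ) : K) - ((c' : Kˣ) : K)))) /
        Multiplicative.ofAdd (((c' : Kˣ) : K) * (y.toAdd / (((c : Kˣ) : K) - ((c' : Kˣ) : K)))) := by
      rw [← ofAdd_sub, ← sub_mul]
      apply Multiplicative.toAdd.injective
      rw [toAdd_ofAdd]
      field_simp
    rw [h2, map_div, h1, div_self', MonoidHom.one_apply]
  have h5 := card_le_finrank (ρ.comp w) (fun c : S => χ.comp (sqHom ((c : Kˣ) : K))) hinj hwt
  -- the number of squares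
  have h6 : Nat.card Kˣ = Nat.card S * Nat.card (powMonoidHom 2 : Kˣ →* Kˣ).ker := by
    rw [mul_comm, ← Subgroup.card_mul_index (powMonoidHom 2 : Kˣ →* Kˣ).ker, Subgroup.index_ker]
  have h7 : Nat.card (powMonoidHom 2 : Kˣ →* Kˣ).ker ≤ 2 := by
    have h8 : (powMonoidHom 2 : Kˣ →* Kˣ).ker ≤ zpowers (-1 : Kˣ) := by
      intro t ht
      rw [MonoidHom.mem_ker, powMonoidHom_apply] at ht
      have h9 : ((t : K)) ^ 2 = 1 := by
        have := congrArg (fun z : Kˣ => (z : K)) ht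
        simpa using this
      rcases sq_eq_sq_iff_eq_or_eq_neg.1 (h9.trans (one_pow 2).symm) with h10 | h10
      · have : t = 1 := Units.ext h10
        rw [this]; exact one_mem _
      · have : t = -1 := Units.ext (by rw [h10]; simp)
        rw [this]; exact mem_zpowers _
    refine (Nat.card_le_card_of_injective _ (Subgroup.inclusion_injective h8)).trans ?_
    rw [Nat.card_zpowers]
    exact orderOf_le_of_pow_eq_one (by norm_num) (by simp)
  have h8 : Nat.card Kˣ = Fintype.card K - 1 := by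
    rw [Nat.card_eq_fintype_card, Fintype.card_units]
  have h9 : Nat.card S * Nat.card (powMonoidHom 2 : Kˣ →* Kˣ).ker ≤ finrank E U * 2 := Nat.mul_le_mul h5 h7
  omega

end Bound

variable {G : Type*} [Group G] {p : ℕ} (hp : p.Prime) (hp5 : 5 ≤ p) {G' : Type*} [Group G'] {π : G' →* G}
  (hπ : CK π)

include hp hp5 hπ

/-- **Elements of `A ⊔ B`.** -/
theorem pair_cases {A B : Subgroup G} (h : Pair p A B) {E U : Type*} [Field E] [IsAlgClosed E] (hE : (p : E) ≠ 0)
    [AddCommGroup U] [Module E U] [FiniteDimensional E U] (ρ : G' →* Module.End E U) (hA : Nat.card A = p)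
    (hρ : Function.Injective ρ) :
    ∃ m : ℕ, 1 ≤ m ∧ p ^ m ≤ 2 * finrank E U + 1 ∧
      ∀ z ∈ A ⊔ B, z ^ (2 * p) = 1 ∨ z ^ (p ^ m - 1) = 1 ∨ z ^ (p ^ m + 1) = 1 := by
  obtain ⟨K, _, _, _, m, φ, x, y, hm, hK, hφ, hX, hx, hy, hAx, hBy⟩ := h
  have hodd : Odd p := hp.odd_of_ne_two (by omega)
  refine ⟨m, hm, ?_, ?_⟩
  · rw [← hK]
    obtain ⟨w, hw, hwp⟩ := hπ.exists_lift hodd (φ.comp (uHom K)) (fun x => by
      apply Multiplicative.toAdd.injective
      rw [toAdd_pow, toAdd_one, nsmul_eq_mul, CharP.cast_eq_zero, zero_mul])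
    refine cov_bound hp hE ρ w ?_ ⟨Multiplicative.ofAdd x, fun h0 => ?_⟩
    · intro t ht
      obtain ⟨D, hD⟩ := hπ.1 (φ (d t⁻¹ (inv_ne_zero ht)))
      refine ⟨D, fun x => ?_⟩
      refine hπ.uniq hodd ?_ (hwp _) ?_
      · rw [hw, map_mul, map_mul, map_inv, hw, hD, MonoidHom.comp_apply, MonoidHom.comp_apply, ← map_inv, ← map_mul,
          ← map_mul]
        congr 1
        have h1 := d_u t⁻¹ (inv_ne_zero ht) (t ^ 2 * x.toAdd)
        have h2 : (t⁻¹) ^ 2 * (t ^ 2 * x.toAdd) = x.toAdd := by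
          rw [← mul_assoc, ← mul_pow, inv_mul_cancel₀ ht, one_pow, one_mul]
        rw [h2] at h1
        show u (t ^ 2 * x.toAdd) = _
        generalize d t⁻¹ (inv_ne_zero ht) = D at h1 ⊢
        have h4 : uHom K x = D * u (t ^ 2 * x.toAdd) * D⁻¹ := h1.symm
        rw [h4]
        group
      · have : (D⁻¹ * w x * D) ^ p = D⁻¹ * (w x) ^ p * D := by
          have h3 := conj_pow (i := p) (a := D⁻¹) (b := w x)
          rwa [inv_inv] at h3
        rw [this, hwp]
        group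
    · have h1 : w (Multiplicative.ofAdd x) = 1 := hρ (by rw [map_one]; exact h0)
      have h2 : φ (u x) = 1 := by
        have h3 := hw (Multiplicative.ofAdd x)
        rw [h1, map_one] at h3
        exact h3.symm
      rw [h2, zpowers_one_eq_bot] at hAx
      rw [hAx, Subgroup.card_bot] at hA
      exact hp.one_lt.ne hA
  · intro z hz
    rw [← hX] at hz
    obtain ⟨Z, rfl⟩ := hz
    rcases sl_order hp (by omega) Z with h1 | h1 | h1
    · left; rw [← map_pow, h1, map_one]
    · right; left; rw [← hK, ← map_pow, h1, map_one]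
    · right; right; rw [← hK, ← map_pow, h1, map_one]

/-- **Products of two elements of conjugates of `A`.** -/
theorem pr_cases {A : Subgroup G} (h : Pr p A) {E U : Type*} [Field E] [IsAlgClosed E] (hE : (p : E) ≠ 0)
    [AddCommGroup U] [Module E U] [FiniteDimensional E U] (ρ : G' →* Module.End E U) (hρ : Function.Injective ρ)
    {g k a b : G} (ha : a ∈ A) (hb : b ∈ A) {z : G} (hz : z = g * a * g⁻¹ * (k * b * k⁻¹)) :
    z ^ (2 * p) = 1 ∨ ∃ m : ℕ, 1 ≤ m ∧ p ^ m ≤ 2 * finrank E U + 1 ∧ (z ^ (p ^ m - 1) = 1 ∨ z ^ (p ^ m + 1) = 1) := by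
  have h1 : g * a * g⁻¹ ∈ cj g A := conj_mem_cj ha
  have h2 : k * b * k⁻¹ ∈ cj k A := conj_mem_cj hb
  by_cases hc : Cm (cj g A) (cj k A)
  · left
    have h3 : Commute (g * a * g⁻¹) (k * b * k⁻¹) := hc _ h1 _ h2
    have h4 : ∀ c ∈ A, c ^ p = 1 := by
      intro c hcA
      have := pow_card_eq_one' (x := (⟨c, hcA⟩ : A))
      rw [h.card] at this
      exact congrArg Subtype.val this
    have h5 : z ^ p = 1 := by
      rw [hz, h3.mul_pow, conj_pow, conj_pow, h4 a ha, h4 b hb]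
      group
    rw [mul_comm, pow_mul, h5, one_pow]
  · obtain ⟨m, hm, h3, h4⟩ := pair_cases hp hp5 hπ (exists_pair hp hp5 (h.card_cj g) (h.card_cj k)
      ((h.pair' g k).resolve_left hc) hc) hE ρ (h.card_cj g) hρ
    rcases h4 z (by rw [hz]; exact mul_mem (mem_sup_left h1) (mem_sup_right h2)) with h5 | h5
    · exact Or.inl h5
    · exact Or.inr ⟨m, hm, h3, h5⟩

/-- `p ≤ 2 N + 1` -/
theorem pr_le [Finite G] [IsSimpleGroup G] (hna : ¬ ∀ x y : G, x * y = y * x) {A : Subgroup G} (h : Pr p A)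
    {E U : Type*} [Field E] [IsAlgClosed E] (hE : (p : E) ≠ 0) [AddCommGroup U] [Module E U]
    [FiniteDimensional E U] (ρ : G' →* Module.End E U) (hρ : Function.Injective ρ) : p ≤ 2 * finrank E U + 1 := by
  obtain ⟨g, hg⟩ := h.exists_noncomm_simple hp hp5 hna
  obtain ⟨m, hm, h1, -⟩ := pair_cases hp hp5 hπ (h.exists_pair hp hp5 hg) hE ρ h.card hρ
  exact (Nat.le_self_pow (by omega) p).trans h1

/-- the matrix version, over an arbitrary field -/
theorem pr_cases_mat [Finite G] [IsSimpleGroup G] (hna : ¬ ∀ x y : G, x * y = y * x) {A : Subgroup G} (h : Pr p A)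
    {F : Type*} [Field F] (hF : (p : F) ≠ 0) {n : Type*} [Fintype n] [DecidableEq n]
    (f : G' →* Matrix n n F) (hf : Function.Injective f) :
    p ≤ 2 * Fintype.card n + 1 ∧ ∀ {g k a b : G}, a ∈ A → b ∈ A → ∀ {z : G}, z = g * a * g⁻¹ * (k * b * k⁻¹) →
      z ^ (2 * p) = 1 ∨ ∃ m : ℕ, 1 ≤ m ∧ p ^ m ≤ 2 * Fintype.card n + 1 ∧
        (z ^ (p ^ m - 1) = 1 ∨ z ^ (p ^ m + 1) = 1) := by
  let E := AlgebraicClosure F
  have hE : (p : E) ≠ 0 := by
    intro h0
    apply hF
    apply (algebraMap F E).injective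
    rw [map_natCast, map_zero]
    exact h0
  let ρ : G' →* Module.End E (n → E) :=
    ((Matrix.toLinAlgEquiv' (R := E) (n := n)).toAlgHom.toRingHom.toMonoidHom.comp
      ((algebraMap F E).mapMatrix.toMonoidHom)).comp f
  have hρ : Function.Injective ρ := by
    intro x y hxy
    apply hf
    have h1 : (algebraMap F E).mapMatrix (f x) = (algebraMap F E).mapMatrix (f y) :=
      (Matrix.toLinAlgEquiv' (R := E) (n := n)).injective hxy
    exact Matrix.map_injective (algebraMap F E).injective h1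
  have hfin : finrank E (n → E) = Fintype.card n := Module.finrank_fintype_fun_eq_card E
  rw [← hfin]
  exact ⟨pr_le hp hp5 hπ hna h hE ρ hρ, fun ha hb _ hz => pr_cases hp hp5 hπ h hE ρ hρ ha hb hz⟩

/-- **`Reg` from a representation of a cover.** -/
theorem reg_of_cover [Finite G] [IsSimpleGroup G] {r : ℕ} (hr : r.Prime) (hrp : r ≠ p) (hK : LieHyp r G)
    {A : Subgroup G} (h : Pr p A) {F : Type*} [Field F] [CharP F r] {n : Type*} [Fintype n] [DecidableEq n] {N : ℕ}
    (hN : Fintype.card n = N) (f : G' →* Matrix n n F) (hf : Function.Injective f) : Reg p r N G := by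
  have : Fact r.Prime := ⟨hr⟩
  have hpf : Fact p.Prime := ⟨hp⟩
  have hF : (p : F) ≠ 0 := by
    intro h0
    have h1 := (CharP.cast_eq_zero_iff F r p).1 h0
    exact hrp ((Nat.prime_dvd_prime_iff_eq hr hp).1 h1)
  obtain ⟨a, ha, hao, hAa⟩ := Cfsg.Agent.H333.SLTwoLine.exists_gen hp A h.card
  have hx := not_dvd_centralizer hp hp5 hrp hK.loc h ha hAa
  subst hN
  obtain ⟨h1, h2⟩ := pr_cases_mat hp hp5 hπ hK.nonab h hF f hf
  refine ⟨h1, ?_, fun z hz => ?_⟩
  · rw [← hao]; exact orderOf_dvd_natCard a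
  · by_cases hz1 : z = 1
    · left; rw [hz1, one_pow]
    · obtain ⟨g, k, hgk⟩ := hK.gow hx hz1 hz
      exact h2 ha ha hgk.symm

end Cfsg.Agent.H724.Tor
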